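import Cfsg.Agent.H669.Dl.Ab

/-!
# The Sylow 3-subgroup of a group containing `A₁₂` with index prime to 9

`J` = the group generated by four disjoint 3-cycles, `τ` permutes three of them.
-/

set_option autoImplicit false
set_option maxRecDepth 100000

namespace Cfsg.Agent.H669.Dl.A12

open Subgroup Equiv

/-- the product of powers of four disjoint 3-cycles, as a function -/
def fn (v : Fin 3 × Fin 3 × Fin 3 × Fin 3) (x : Fin 12) : Fin 12 :=
  let q := x.val / 3
  let r := x.val % 3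
  let s := if q = 0 then v.1.val else if q = 1 then v.2.1.val else if q = 2 then v.2.2.1.val else v.2.2.2.val
  ⟨(3 * q + (r + s) % 3) % 12, Nat.mod_lt _ (by norm_num)⟩

/-- the inverse parameter -/
def neg (v : Fin 3 × Fin 3 × Fin 3 × Fin 3) : Fin 3 × Fin 3 × Fin 3 × Fin 3 := (-v.1, -v.2.1, -v.2.2.1, -v.2.2.2)

theorem fn_neg : ∀ v x, fn (neg v) (fn v x) = x := by decide +kernel

theorem fn_neg' : ∀ v x, fn v (fn (neg v) x) = x := by decide +kernel

/-- the permutation -/
def pm (v : Fin 3 × Fin 3 × Fin 3 × Fin 3) : Perm (Fin 12) := ⟨fn v, fn (neg v), fn_neg v, fn_neg' v⟩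

theorem pm_mul_sp0 : ∀ v : Fin 3 × Fin 3 × Fin 3 × Fin 3, v.1 = 0 → ∀ w x, fn v (fn w x) = fn (v + w) x := by
  decide +kernel
theorem pm_mul_sp1 : ∀ v : Fin 3 × Fin 3 × Fin 3 × Fin 3, v.1 = 1 → ∀ w x, fn v (fn w x) = fn (v + w) x := by
  decide +kernel
theorem pm_mul_sp2 : ∀ v : Fin 3 × Fin 3 × Fin 3 × Fin 3, v.1 = 2 → ∀ w x, fn v (fn w x) = fn (v + w) x := by
  decide +kernel

theorem pm_mul : ∀ v w x, fn v (fn w x) = fn (v + w) x := by
  intro v w x
  have h : ∀ i : Fin 3, i = 0 ∨ i = 1 ∨ i = 2 := by decide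
  rcases h v.1 with h0 | h0 | h0
  · exact pm_mul_sp0 v h0 w x
  · exact pm_mul_sp1 v h0 w x
  · exact pm_mul_sp2 v h0 w x

/-- the homomorphism -/
def f : Multiplicative (Fin 3 × Fin 3 × Fin 3 × Fin 3) →* Perm (Fin 12) where
  toFun v := pm v.toAdd
  map_one' := by
    ext x
    revert x
    decide
  map_mul' v w := by
    ext x
    exact congrArg Fin.val (pm_mul v.toAdd w.toAdd x).symm

/-- the element which permutes three of the cycles -/
def tf (x : Fin 12) : Fin 12 := if x.val < 9 then ⟨(x.val + 3) % 9, by omega⟩ else x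
/-- its inverse -/
def tf' (x : Fin 12) : Fin 12 := if x.val < 9 then ⟨(x.val + 6) % 9, by omega⟩ else x

/-- the element which permutes three of the cycles -/
def τ : Perm (Fin 12) := ⟨tf, tf', by decide, by decide⟩

theorem tau_cube : τ ^ 3 = 1 := by decide

/-- the action on the parameters -/
def sh (v : Fin 3 × Fin 3 × Fin 3 × Fin 3) : Fin 3 × Fin 3 × Fin 3 × Fin 3 := (v.2.2.1, v.1, v.2.1, v.2.2.2)

theorem tau_aux : ∀ v x, tf (fn v x) = fn (sh v) (tf x) := by decide +kernel

theorem tau_conj (v : Fin 3 × Fin 3 × Fin 3 × Fin 3) : τ * pm v = pm (sh v) * τ := by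
  ext x
  exact congrArg Fin.val (tau_aux v x)

theorem pm_inj : Function.Injective pm := by
  intro v w h
  have h1 : ∀ v w : Fin 3 × Fin 3 × Fin 3 × Fin 3, fn v 0 = fn w 0 → fn v 3 = fn w 3 → fn v 6 = fn w 6 →
      fn v 9 = fn w 9 → v = w := by decide +kernel
  exact h1 v w (congrArg (fun s : Perm (Fin 12) => s 0) h) (congrArg (fun s : Perm (Fin 12) => s 3) h)
    (congrArg (fun s : Perm (Fin 12) => s 6) h) (congrArg (fun s : Perm (Fin 12) => s 9) h)

theorem f_inj : Function.Injective f := fun _ _ h => pm_inj h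

theorem cube_aux : ∀ v x, fn v (fn v (fn v x)) = x := by decide +kernel

theorem mem_alt_of_cube {s : Perm (Fin 12)} (h : s ^ 3 = 1) : s ∈ alternatingGroup (Fin 12) := by
  rw [Perm.mem_alternatingGroup]
  have h1 := congrArg Perm.sign h
  rw [map_pow, map_one] at h1
  rcases Int.units_eq_one_or (Perm.sign s) with h2 | h2
  · exact h2
  · rw [h2] at h1
    exact absurd h1 (by decide)

theorem pm_mem (v : Fin 3 × Fin 3 × Fin 3 × Fin 3) : pm v ∈ alternatingGroup (Fin 12) := by
  apply mem_alt_of_cube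
  ext x
  exact congrArg Fin.val (cube_aux v x)

/-- into the alternating group -/
def fa : Multiplicative (Fin 3 × Fin 3 × Fin 3 × Fin 3) →* alternatingGroup (Fin 12) :=
  f.codRestrict _ fun v => pm_mem v.toAdd

/-- `τ` as an even permutation -/
def ta : alternatingGroup (Fin 12) := ⟨τ, mem_alt_of_cube tau_cube⟩

theorem fa_inj : Function.Injective fa := fun _ _ h => f_inj (congrArg Subtype.val h)

theorem ta_conj (v : Multiplicative (Fin 3 × Fin 3 × Fin 3 × Fin 3)) :
    ta * fa v * ta⁻¹ = fa (Multiplicative.ofAdd (sh v.toAdd)) := by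
  rw [mul_inv_eq_iff_eq_mul]
  exact Subtype.ext (tau_conj v.toAdd)

theorem ta_cube : ta ^ 3 = 1 := Subtype.ext tau_cube

theorem fix_aux : ∀ v : Fin 3 × Fin 3 × Fin 3 × Fin 3, sh v = v → v.1 = v.2.1 ∧ v.1 = v.2.2.1 := by decide +kernel

/-- **`P'' = 1` for the Sylow 3-subgroups of a group with a subgroup `A₁₂`, of order divisible by `3 ^ 6` exactly** -/
theorem dl_three {G : Type*} [Group G] [Finite G] (Φ : alternatingGroup (Fin 12) →* G) (hΦ : Function.Injective Φ)
    [Fact (Nat.Prime 3)] (hS : ∀ Q : Sylow 3 G, Nat.card (Q : Subgroup G) = 3 ^ 6) (P : Sylow 3 G) :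
    derivedSeries ↥(P : Subgroup G) 2 = ⊥ := by
  set g := Φ.comp fa with hg
  have hgi : Function.Injective g := hΦ.comp fa_inj
  have hconj : ∀ v, Φ ta * g v * (Φ ta)⁻¹ = g (Multiplicative.ofAdd (sh v.toAdd)) := by
    intro v
    change Φ ta * Φ (fa v) * (Φ ta)⁻¹ = Φ (fa _)
    rw [← map_inv, ← map_mul, ← map_mul, ta_conj]
  have hcard : Nat.card g.range = 3 ^ 4 := by
    rw [← Nat.card_congr (MonoidHom.ofInjective hgi).toEquiv, Nat.card_eq_fintype_card, Fintype.card_multiplicative]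
    simp
  have hJp : IsPGroup 3 g.range := IsPGroup.of_card hcard
  have hnorm : Φ ta ∈ normalizer (g.range : Set G) := by
    have h1 : ∀ x ∈ g.range, Φ ta * x * (Φ ta)⁻¹ ∈ g.range := by
      rintro _ ⟨v, rfl⟩
      exact ⟨_, (hconj v).symm⟩
    have h2 : g.range.map (MulAut.conj (Φ ta)).toMonoidHom = g.range := by
      apply Subgroup.eq_of_le_of_card_ge
      · rintro _ ⟨x, hx, rfl⟩
        exact h1 x hx
      · rw [Subgroup.card_map_of_injective (MulAut.conj (Φ ta)).injective]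
    rw [mem_normalizer_iff]
    intro x
    refine ⟨h1 x, fun hx => ?_⟩
    rw [← h2] at hx
    obtain ⟨y, hy, hyx⟩ := hx
    have h3 : y = x := (MulAut.conj (Φ ta)).injective hyx
    rwa [← h3]
  have hT : IsPGroup 3 (zpowers (Φ ta)) := by
    intro x
    refine ⟨1, ?_⟩
    obtain ⟨k, hk⟩ := mem_zpowers_iff.1 x.2
    apply Subtype.ext
    rw [pow_one, coe_pow, ← hk, ← zpow_natCast, ← zpow_mul, mul_comm, zpow_mul, zpow_natCast, ← map_pow, ta_cube,
      map_one, one_zpow]
    rfl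
  have hsup : IsPGroup 3 ↥(zpowers (Φ ta) ⊔ g.range) := by
    refine IsPGroup.to_sup_of_normal_right' hT hJp ?_
    rw [zpowers_le]
    exact hnorm
  refine dl_two (p := 3) (n := 3) (by simpa using hS) (A := zpowers (Φ ta) ⊔ g.range) hsup le_sup_right hcard ?_
    (t := Φ ta) (mem_sup_left (mem_zpowers _)) hnorm ?_ P
  · rintro _ ⟨v, rfl⟩ _ ⟨w, rfl⟩
    rw [← map_mul, ← map_mul, mul_comm]
  · have h9 : Nat.card (Fin 3 × Fin 3) = 9 := by simp
    refine lt_of_le_of_lt ?_ (show 9 < 3 ^ 3 by norm_num)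
    rw [← h9]
    have hex : ∀ x : ↥(g.range ⊓ centralizer ({Φ ta} : Set G)), ∃ v, g v = x := fun x => x.2.1
    choose v hv using hex
    have hfix : ∀ x, sh (v x).toAdd = (v x).toAdd := by
      intro x
      have h1 := hconj (v x)
      have h2 : (x : G) ∈ centralizer ({Φ ta} : Set G) := x.2.2
      rw [mem_centralizer_singleton_iff, ← hv x] at h2
      rw [← h2, mul_inv_cancel_right] at h1
      exact (congrArg Multiplicative.toAdd (hgi h1)).symm
    refine Nat.card_le_card_of_injective (fun x => ((v x).toAdd.1, (v x).toAdd.2.2.2)) ?_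
    intro x y hxy
    obtain ⟨h1, h2⟩ := Prod.mk.inj (show ((v x).toAdd.1, (v x).toAdd.2.2.2) = ((v y).toAdd.1, (v y).toAdd.2.2.2)
      from hxy)
    obtain ⟨h3, h4⟩ := fix_aux _ (hfix x)
    obtain ⟨h5, h6⟩ := fix_aux _ (hfix y)
    have h7 : v x = v y := by
      apply Multiplicative.toAdd.injective
      refine Prod.ext h1 (Prod.ext ?_ (Prod.ext ?_ h2))
      · rw [← h3, ← h5, h1]
      · rw [← h4, ← h6, h1]
    apply Subtype.ext
    rw [← hv x, ← hv y, h7]

end Cfsg.Agent.H669.Dl.A12
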