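import Mathlib

/-!
# Metabelian `p`-groups with an abelian subgroup of index `p ^ 2`
-/

set_option autoImplicit false

namespace Cfsg.Agent.H669.Dl

open Subgroup
open scoped commutatorElement

variable {p : ℕ} [hp : Fact p.Prime]

theorem card_mul_relIndex' {P : Type*} [Group P] {H K : Subgroup P} (h : H ≤ K) :
    Nat.card H * H.relIndex K = Nat.card K := by
  rw [← relIndex_bot_left, ← relIndex_bot_left, relIndex_mul_relIndex ⊥ H K bot_le h]

theorem derivedSeries_two_of_normal {P : Type*} [Group P] [Finite P] {J : Subgroup P} [J.Normal]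
    (hJ : ∀ a ∈ J, ∀ b ∈ J, a * b = b * a) (h : Nat.card (P ⧸ J) = p ^ 2) : derivedSeries P 2 = ⊥ := by
  have hc : ∀ a b : P ⧸ J, a * b = b * a := by
    let _ := IsPGroup.commGroupOfCardEqPrimeSq h
    exact fun a b => mul_comm a b
  have h1 : derivedSeries P 1 ≤ J := by
    rw [derivedSeries_one, _root_.commutator_def, Subgroup.commutator_le]
    intro a _ b _
    rw [← QuotientGroup.eq_one_iff, commutatorElement_def]
    change (QuotientGroup.mk a * QuotientGroup.mk b * (QuotientGroup.mk a)⁻¹ * (QuotientGroup.mk b)⁻¹ : P ⧸ J) = 1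
    rw [hc (QuotientGroup.mk a) (QuotientGroup.mk b)]
    group
  rw [derivedSeries_succ, eq_bot_iff, Subgroup.commutator_le]
  intro a ha b hb
  rw [mem_bot, commutatorElement_eq_one_iff_mul_comm]
  exact hJ a (h1 ha) b (h1 hb)

/-- an abelian subgroup `J` of index `p ^ 2` of a group of order `p ^ (n + 3)`, with an element `t` of `N(J)`
with `|C_J(t)| < p ^ n` -/
theorem derivedSeries_two {P : Type*} [Group P] [Finite P] {n : ℕ} (hP : Nat.card P = p ^ (n + 3)) {J : Subgroup P}
    (hcard : Nat.card J = p ^ (n + 1)) (hJ : ∀ a ∈ J, ∀ b ∈ J, a * b = b * a) {t : P}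
    (ht : t ∈ normalizer (J : Set P)) (hC : Nat.card ↥(J ⊓ centralizer ({t} : Set P)) < p ^ n) :
    derivedSeries P 2 = ⊥ := by
  have hpP : IsPGroup p P := IsPGroup.of_card hP
  have hp0 := hp.out.pos
  by_cases hN : J.Normal
  · apply derivedSeries_two_of_normal (p := p) hJ
    rw [← Subgroup.index_eq_card]
    have h1 := J.card_mul_index
    rw [hcard, hP, show n + 3 = (n + 1) + 2 from rfl, pow_add p (n + 1) 2] at h1
    exact Nat.eq_of_mul_eq_mul_left (by positivity) h1
  · exfalso
    set N := normalizer (J : Set P) with hNdef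
    have hJN : J ≤ N := le_normalizer
    have hNtop : N ≠ ⊤ := fun h => hN (normalizer_eq_top_iff.1 h)
    -- `|N| = p ^ (n + 2)`
    obtain ⟨k, hk⟩ := (hpP.to_subgroup N).exists_card_eq
    have htJ : t ∉ J := by
      intro h
      have h1 : J ⊓ centralizer ({t} : Set P) = J := by
        rw [inf_eq_left]
        intro x hx
        rw [mem_centralizer_singleton_iff]
        exact hJ x hx t h
      rw [h1, hcard] at hC
      exact absurd hC (not_lt.2 (Nat.pow_le_pow_right hp0 (by omega)))
    have hk1 : n + 1 < k := by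
      have h1 : Nat.card J < Nat.card N := by
        refine lt_of_le_of_ne (Subgroup.card_le_of_le hJN) fun h => htJ ?_
        rw [Subgroup.eq_of_le_of_card_ge hJN h.ge]
        exact ht
      rw [hcard, hk] at h1
      exact (Nat.pow_lt_pow_iff_right hp.out.one_lt).1 h1
    have hk2 : k < n + 3 := by
      have h1 : Nat.card N < Nat.card P := by
        refine lt_of_le_of_ne (Subgroup.card_le_card_group N) fun h => hNtop ?_
        exact Subgroup.eq_top_of_card_eq N h
      rw [hP, hk] at h1
      exact (Nat.pow_lt_pow_iff_right hp.out.one_lt).1 h1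
    have hk3 : k = n + 2 := by omega
    rw [hk3] at hk
    have hNidx : N.index = p := by
      have h1 := N.card_mul_index
      rw [hk, hP, show n + 3 = (n + 2) + 1 from rfl, pow_add p (n + 2) 1, pow_one] at h1
      exact Nat.eq_of_mul_eq_mul_left (by positivity) h1
    have hNn : N.Normal := by
      apply Subgroup.normal_of_index_eq_minFac_card
      rw [hNidx, hP, Nat.pow_minFac (by omega), hp.out.minFac_eq]
    -- a conjugate of `J` different from `J`
    obtain ⟨g, hg⟩ : ∃ g : P, J.map (MulAut.conj g).toMonoidHom ≠ J := by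
      by_contra hcon
      push Not at hcon
      apply hN
      refine ⟨fun x hx g => ?_⟩
      rw [← hcon g]
      exact ⟨x, hx, rfl⟩
    set K := J.map (MulAut.conj g).toMonoidHom with hK
    have hKN : K ≤ N := by
      rintro _ ⟨x, hx, rfl⟩
      exact hNn.conj_mem x (hJN hx) g
    have hKc : Nat.card K = p ^ (n + 1) := by
      rw [hK, Subgroup.card_map_of_injective (MulAut.conj g).injective, hcard]
    have hrel : ∀ L : Subgroup P, L ≤ N → Nat.card L = p ^ (n + 1) → L.relIndex N = p := by
      intro L hL hLc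
      have h1 := card_mul_relIndex' hL
      rw [hLc, hk, show n + 2 = (n + 1) + 1 from rfl, pow_add p (n + 1) 1, pow_one] at h1
      exact Nat.eq_of_mul_eq_mul_left (by positivity) h1
    -- `J ⊔ K = N`
    have hsup : J ⊔ K = N := by
      apply Subgroup.eq_of_le_of_card_ge (sup_le hJN hKN)
      obtain ⟨m, hm⟩ := (hpP.to_subgroup (J ⊔ K)).exists_card_eq
      have h1 : Nat.card J < Nat.card ↥(J ⊔ K) := by
        refine lt_of_le_of_ne (Subgroup.card_le_of_le le_sup_left) fun h => hg ?_
        have h2 : J = J ⊔ K := Subgroup.eq_of_le_of_card_ge le_sup_left h.ge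
        have h3 : K ≤ J := by rw [h2]; exact le_sup_right
        exact Subgroup.eq_of_le_of_card_ge h3 (by rw [hKc, hcard])
      rw [hcard, hm] at h1
      have h2 := (Nat.pow_lt_pow_iff_right hp.out.one_lt).1 h1
      rw [hm, hk]
      exact Nat.pow_le_pow_right hp0 (by omega)
    -- the intersection
    have h1 : (J ⊓ K).relIndex N ≤ p * p := by
      have h2 := Subgroup.relIndex_inf_le (H := J) (K := K) (L := N)
      rwa [hrel J hJN hcard, hrel K hKN hKc] at h2
    have h2 := card_mul_relIndex' (H := J ⊓ K) (K := N) (inf_le_left.trans hJN)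
    have h3 : J ⊓ K ≤ J ⊓ centralizer ({t} : Set P) := by
      intro x hx
      refine ⟨hx.1, ?_⟩
      have h4 : N ≤ centralizer ({x} : Set P) := by
        rw [← hsup, sup_le_iff]
        constructor
        · intro y hy
          rw [mem_centralizer_singleton_iff]
          exact hJ y hy x hx.1
        · rintro _ ⟨y, hy, rfl⟩
          obtain ⟨z, hz, hzx⟩ := hx.2
          rw [mem_centralizer_singleton_iff, ← hzx, ← map_mul, ← map_mul]
          exact congrArg _ (hJ y hy z hz)
      have h5 := h4 ht
      rw [mem_centralizer_singleton_iff] at h5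
      change x ∈ centralizer ({t} : Set P)
      rw [mem_centralizer_singleton_iff]
      exact h5.symm
    have h4 := Subgroup.card_le_of_le h3
    rw [hk] at h2
    have h5 : p ^ (n + 2) ≤ Nat.card ↥(J ⊓ K) * (p * p) := by
      rw [← h2]; exact Nat.mul_le_mul_left _ h1
    have h6 : p ^ (n + 2) = p ^ n * (p * p) := by rw [pow_add, pow_two]
    rw [h6] at h5
    have h7 := Nat.le_of_mul_le_mul_right h5 (by positivity)
    omega

/-- the version for a Sylow subgroup -/
theorem dl_two {G : Type*} [Group G] [Finite G] {n : ℕ} (hS : ∀ Q : Sylow p G, Nat.card (Q : Subgroup G) = p ^ (n + 3))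
    {A J : Subgroup G} (hA : IsPGroup p A) (hJA : J ≤ A)
    (hcard : Nat.card J = p ^ (n + 1)) (hJ : ∀ a ∈ J, ∀ b ∈ J, a * b = b * a) {t : G} (htA : t ∈ A)
    (ht : t ∈ normalizer (J : Set G)) (hC : Nat.card ↥(J ⊓ centralizer ({t} : Set G)) < p ^ n) (P : Sylow p G) :
    derivedSeries ↥(P : Subgroup G) 2 = ⊥ := by
  obtain ⟨Q, hQ⟩ := hA.exists_le_sylow
  have hJQ : J ≤ (Q : Subgroup G) := hJA.trans hQ
  have h1 : derivedSeries ↥(Q : Subgroup G) 2 = ⊥ := by
    refine derivedSeries_two (p := p) (n := n) (P := (Q : Subgroup G)) (hS Q) (J := J.subgroupOf Q) ?_ ?_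
      (t := ⟨t, hQ htA⟩) ?_ ?_
    · rw [← hcard]
      exact Nat.card_congr (Subgroup.subgroupOfEquivOfLe hJQ).toEquiv
    · intro a ha b hb
      exact Subtype.ext (hJ a ha b hb)
    · rw [mem_normalizer_iff] at ht ⊢
      intro x
      exact ht x
    · refine lt_of_le_of_lt ?_ hC
      refine Nat.card_le_card_of_injective
        (fun x : ↥(J.subgroupOf Q ⊓ centralizer ({⟨t, hQ htA⟩} : Set ↥(Q : Subgroup G))) =>
          (⟨((x : ↥(Q : Subgroup G)) : G), x.2.1, ?_⟩ : ↥(J ⊓ centralizer ({t} : Set G)))) ?_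
      · have h2 := x.2.2
        change (x : ↥(Q : Subgroup G)) ∈ centralizer _ at h2
        change ((x : ↥(Q : Subgroup G)) : G) ∈ centralizer _
        rw [mem_centralizer_singleton_iff] at h2 ⊢
        exact congrArg Subtype.val h2
      · intro x y hxy
        have h4 : ((x : ↥(Q : Subgroup G)) : G) = ((y : ↥(Q : Subgroup G)) : G) :=
          congrArg (fun z : ↥(J ⊓ centralizer ({t} : Set G)) => (z : G)) hxy
        exact Subtype.ext (Subtype.ext h4)
  -- conjugate Sylow subgroups
  obtain ⟨e⟩ : Nonempty (↥(P : Subgroup G) ≃* ↥(Q : Subgroup G)) := ⟨Sylow.equiv P Q⟩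
  have h2 : (derivedSeries ↥(P : Subgroup G) 2).map e.toMonoidHom ≤ derivedSeries ↥(Q : Subgroup G) 2 :=
    map_derivedSeries_le_derivedSeries e.toMonoidHom 2
  rw [h1, le_bot_iff, Subgroup.map_eq_bot_iff] at h2
  rw [eq_bot_iff]
  intro x hx
  have h3 := h2 hx
  rw [MonoidHom.mem_ker] at h3
  rw [Subgroup.mem_bot]
  exact e.injective (by rw [map_one]; exact h3)

end Cfsg.Agent.H669.Dl
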