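import Cfsg.Agent.H860.PairGroup
import Cfsg.Agent.H860.TwoElem
import Cfsg.Agent.H729.Trans

/-!
# Elements of order 16 in `2^11:M24` (helper669, task 2519)

`card_le` : the centralizer in `2^11:M24` of an element of order 16 has at most 32 elements.
-/

set_option autoImplicit false
set_option maxRecDepth 100000

namespace Cfsg.Agent.H669.Dl.J4

open Cfsg Cfsg.Agent.H860.Act Cfsg.Agent.H860.Orb Cfsg.Agent.H860.OrbThm Cfsg.Agent.H860.OrbData
open Cfsg.Agent.J4.ClassesAbs (Hyp exists_mul_of_mem_sup eq_one_of_mem)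
open Cfsg.Agent.J4.Beta Cfsg.Agent.J4.M24Hom Cfsg.Agent.J4.GroupLemmas
open Cfsg.Agent.SporadicStructure.M24El Cfsg.Agent.SporadicA.GolayPerm
open Cfsg.Agent.H860.Two24 Cfsg.Agent.H860.Two24Data Cfsg.Agent.H860.TwoElem
open Cfsg.Agent.H860.PairGroup Cfsg.Agent.H729.Trans
open Cfsg.Agent.SporadicA.GolayBase (idx pt)

/-- the packed element of order 8 -/
def P6 : ℕ := rp.getD 6 idP

theorem ok6 : ok P6 = true := ok_getD rp_ok 6

/-- description of the points -/
def wd : List (ℕ × ℕ) := [(0, 0), (3, 0), (0, 4), (2, 0), (4, 0), (3, 1), (0, 7), (2, 3), (0, 3), (1, 0), (1, 3),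
  (1, 6), (1, 7), (0, 1), (2, 2), (1, 5), (1, 2), (0, 6), (5, 0), (1, 4), (2, 1), (0, 5), (1, 1), (0, 2)]

/-- the stages of the search -/
def sts : List (ℕ × List ℕ × List (List (ℕ × ℕ))) := [(0, List.range 24, []),
  (9, List.range 24, [[(0, 0), (0, 7), (1, 0), (1, 3), (1, 6), (0, 1), (1, 5), (0, 6)]]),
  (3, List.range 24, [[(0, 4), (2, 3), (1, 0), (1, 3), (1, 7), (0, 1), (2, 2), (1, 5)]]),
  (1, List.range 24, [[(0, 0), (3, 1), (2, 3), (0, 3), (1, 3), (1, 6), (1, 7), (0, 1)]]),
  (4, List.range 24, [[(0, 0), (3, 0), (0, 4), (2, 0), (4, 0), (2, 3), (1, 3), (1, 7)]]),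
  (18, List.range 24, [])]

theorem pre6 : pre 8 P6 wd sts = true := by decide +kernel

/-- the centralizer of `el P6` -/
def L6 : List ℕ := tl 8 P6 P6 wd sts

theorem mem_L6 {m : M24} (h : m * el P6 = el P6 * m) : packOf (m : Equiv.Perm GolayPt) ∈ L6 := by
  refine packOf_mem_tl pre6 ok6 m h ?_
  have h1 : (sts.all fun st => decide (st.2.1 = List.range 24)) = true := by decide +kernel
  intro st hst
  have h2 := List.all_eq_true.1 h1 st hst
  rw [decide_eq_true_eq] at h2
  rw [h2, List.mem_range]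
  exact im_lt m _

/-- the solutions -/
def sol (v : ℕ) : List (ℕ × ℕ) := L6.flatMap fun P =>
  ((List.range 2048).filter fun w => Nat.beq (Nat.xor w (lin (AP P) v)) (Nat.xor v (lin A6 w))).map fun w => (P, w)

theorem sol1 : (sol 1).length ≤ 32 := by decide +kernel

theorem sol16 : (sol 16).length ≤ 32 := by decide +kernel

theorem small_pow : ∀ j < 6, pcomp (pcomp (rp.getD j idP) (rp.getD j idP))
    (pcomp (rp.getD j idP) (rp.getD j idP)) = idP := by decide +kernel

/-- the matrix of the translations -/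
def BB : List ℕ := [0, 524, 717, 541, 0, 533, 611, 200, 184, 26, 596]

theorem red : ∀ v < 2048, (fun r => r = 0 ∨ r = 17 ∨ r = 1 ∨ r = 16)
    (v ^^^ (lin BB v ^^^ lin A6 (lin BB v))) := by decide +kernel

theorem pw0 : Tab.pw (0, P6) 8 = (0, idP) := by decide +kernel

theorem pw17 : Tab.pw (17, P6) 8 = (0, idP) := by decide +kernel

section

variable {G : Type*} [Group G] {R : Subgroup G} {l : List G} {phi : M24 →* G}

/-- the group `2^11:M24` -/
def NN (l : List G) (phi : M24 →* G) : Subgroup G := Subgroup.closure {q | q ∈ l} ⊔ phi.range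

theorem beta_mem_Q (v : ℕ) : beta l v ∈ Subgroup.closure {q | q ∈ l} :=
  beta_mem _ l (fun _ ha => Subgroup.subset_closure ha) v

theorem beta_mem_NN (v : ℕ) : beta l v ∈ NN l phi := Subgroup.mem_sup_left (beta_mem_Q v)

theorem phi_mem_NN (m : M24) : phi m ∈ NN l phi := Subgroup.mem_sup_right ⟨m, rfl⟩

theorem exists_form (H : Hyp R l phi) {s : G} (hs : s ∈ NN l phi) :
    ∃ w < 2048, ∃ m : M24, s = beta l w * phi m := by
  obtain ⟨q, hq, _, ⟨m, rfl⟩, rfl⟩ := exists_mul_of_mem_sup H.norm hs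
  obtain ⟨w, hw, rfl⟩ := exists_beta H.sq H.comm hq
  rw [H.len] at hw
  exact ⟨w, hw, m, rfl⟩

theorem beta_inv (H : Hyp R l phi) (v : ℕ) : (beta l v)⁻¹ = beta l v :=
  inv_eq_of_mul_eq_one_left (beta_sq l H.sq H.comm v)

variable [Finite G]

theorem inter (H : Hyp R l phi) (m : M24) (h : phi m ∈ Subgroup.closure {q | q ∈ l}) : m = 1 := by
  have : IsSimpleGroup M24 := Cfsg.Agent.S0365.result
  exact eq_one_of_mem _ (two_group l H.sq H.comm H.ind).1 phi H.inj not_two H.norm m h

/-- elements commuting with `beta v * phi P6` -/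
theorem comm_sol (H : Hyp R l phi) {v w : ℕ} (hv : v < 2048) (hw : w < 2048) {m : M24}
    (h : (beta l w * phi m) * (beta l v * phi (el P6)) = (beta l v * phi (el P6)) * (beta l w * phi m)) :
    (packOf (m : Equiv.Perm GolayPt), w) ∈ sol v := by
  have e1 : phi m * beta l v * (phi m)⁻¹ = beta l (lin (AP (packOf (m : Equiv.Perm GolayPt))) v) := by
    have := act_el H (ok_packOf m) v
    rwa [el_packOf] at this
  have e2 : phi (el P6) * beta l w * (phi (el P6))⁻¹ = beta l (lin A6 w) := by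
    rw [mA6]
    exact act_el H ok6 w
  set a := lin (AP (packOf (m : Equiv.Perm GolayPt))) v with ha
  set b := lin A6 w with hb
  have h1 : beta l (w ^^^ a) * phi (m * el P6) = beta l (v ^^^ b) * phi (el P6 * m) := by
    rw [beta_xor l H.sq H.comm, beta_xor l H.sq H.comm, ← e1, ← e2, map_mul, map_mul]
    have h3 : beta l w * (phi m * beta l v * (phi m)⁻¹) * (phi m * phi (el P6)) =
        (beta l w * phi m) * (beta l v * phi (el P6)) := by group
    have h4 : beta l v * (phi (el P6) * beta l w * (phi (el P6))⁻¹) * (phi (el P6) * phi m) =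
        (beta l v * phi (el P6)) * (beta l w * phi m) := by group
    rw [h3, h4, h]
  have h2 : phi (m * el P6 * (el P6 * m)⁻¹) ∈ Subgroup.closure {q | q ∈ l} := by
    have h3 : phi (m * el P6 * (el P6 * m)⁻¹) = (beta l (w ^^^ a))⁻¹ * beta l (v ^^^ b) := by
      rw [map_mul, map_inv]
      have h4 : phi (m * el P6) = (beta l (w ^^^ a))⁻¹ * (beta l (v ^^^ b) * phi (el P6 * m)) := by
        rw [← h1]; group
      rw [h4]
      group
    rw [h3]
    exact Subgroup.mul_mem _ (Subgroup.inv_mem _ (beta_mem_Q _)) (beta_mem_Q _)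
  have h3 : m * el P6 = el P6 * m := by
    have h4 := inter H _ h2
    rwa [mul_inv_eq_one] at h4
  rw [h3] at h1
  have h4 := mul_right_cancel h1
  have ha2 : a < 2048 := lin_lt (AP_lt _) v
  have hb2 : b < 2048 := by
    rw [hb, mA6]
    exact lin_lt (AP_lt _) w
  have h5 : w ^^^ a = v ^^^ b := beta_inj H.sq H.comm H.ind
    (by rw [H.len]; exact Nat.xor_lt_two_pow hw ha2) (by rw [H.len]; exact Nat.xor_lt_two_pow hv hb2) h4
  unfold sol
  rw [List.mem_flatMap]
  refine ⟨_, mem_L6 h3, ?_⟩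
  rw [List.mem_map]
  refine ⟨w, ?_, rfl⟩
  rw [List.mem_filter, List.mem_range]
  refine ⟨hw, ?_⟩
  rw [Nat.beq_eq]
  exact h5

theorem card_le_sol (H : Hyp R l phi) {v : ℕ} (hv : v < 2048) :
    Nat.card {s : G // s ∈ NN l phi ∧ s * (beta l v * phi (el P6)) = (beta l v * phi (el P6)) * s} ≤
      (sol v).length := by
  classical
  choose w hw m hm using fun s : {s : G // s ∈ NN l phi ∧
    s * (beta l v * phi (el P6)) = (beta l v * phi (el P6)) * s} => exists_form H s.2.1
  have hmem : ∀ s, (packOf ((m s : M24) : Equiv.Perm GolayPt), w s) ∈ (sol v).toFinset := by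
    intro s
    rw [List.mem_toFinset]
    refine comm_sol H hv (hw s) ?_
    rw [← hm s]
    exact s.2.2
  have h1 := Nat.card_le_card_of_injective
    (fun s => (⟨_, hmem s⟩ : {x // x ∈ (sol v).toFinset})) (by
      intro s s' hs
      have h2 := congrArg Subtype.val hs
      simp only [Prod.mk.injEq] at h2
      apply Subtype.ext
      rw [hm s, hm s', h2.2, packOf_inj h2.1])
  rw [Nat.card_eq_fintype_card (α := {x // x ∈ (sol v).toFinset}), Fintype.card_coe] at h1
  exact h1.trans (List.toFinset_card_le _)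

theorem el_pow_four (j : ℕ) (hj : j ≠ 6) : el (rp.getD j idP) ^ 4 = 1 := by
  by_cases h : j < 6
  · have h1 := small_pow j h
    have h2 := ok_getD rp_ok j
    have h3 := congrArg el h1
    rw [el_pcomp (ok_pcomp h2 h2) (ok_pcomp h2 h2), el_pcomp h2 h2, el_idP] at h3
    rw [← h3, show (4 : ℕ) = 2 + 2 from rfl, pow_add, pow_two]
  · have h3 : rp.length ≤ j := by
      have : rp.length = 7 := rfl
      omega
    rw [List.getD_eq_getElem?_getD, List.getElem?_eq_none h3]
    show el idP ^ 4 = 1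
    rw [el_idP, one_pow]

/-- the elements of order 16 up to conjugation -/
theorem exists_red (H : Hyp R l phi) {u : G} (hu : u ∈ NN l phi) (h16 : orderOf u = 16) :
    ∃ n ∈ NN l phi, ∃ v, (v = 1 ∨ v = 16) ∧ n * u * n⁻¹ = beta l v * phi (el P6) := by
  obtain ⟨w, hw, m, rfl⟩ := exists_form H hu
  have hm : m ^ 2 ^ 4 = 1 := pow_eq_one H (beta_mem_Q w) (by
    rw [show 2 ^ 4 = 16 from rfl, ← h16, pow_orderOf_eq_one])
  obtain ⟨c, j, hcj⟩ := two_conj hm
  have hq : phi c * beta l w * (phi c)⁻¹ ∈ Subgroup.closure {q | q ∈ l} :=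
    (Subgroup.mem_normalizer_iff.mp (H.norm ⟨c, rfl⟩) _).mp (beta_mem_Q w)
  obtain ⟨v, hv, hv'⟩ := exists_beta H.sq H.comm hq
  rw [H.len] at hv
  have h1 : phi c * (beta l w * phi m) * (phi c)⁻¹ = beta l v * phi (el (rp.getD j idP)) := by
    rw [← hv', ← hcj, map_mul, map_mul, map_inv]
    group
  have hord : ∀ {n y : G}, n * (beta l w * phi m) * n⁻¹ = y → ¬ y ^ 8 = 1 := by
    rintro n y rfl h
    rw [conj_pow] at h
    have h2 : (beta l w * phi m) ^ 8 = 1 := by
      have h3 : (beta l w * phi m) ^ 8 = n⁻¹ * (n * (beta l w * phi m) ^ 8 * n⁻¹) * n := by group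
      rw [h3, h]
      group
    have h4 := orderOf_dvd_of_pow_eq_one h2
    rw [h16] at h4
    norm_num at h4
  have hj : j = 6 := by
    by_contra hj
    apply hord h1
    have hn : phi (el (rp.getD j idP)) ∈ Subgroup.normalizer ((Subgroup.closure {q | q ∈ l} : Subgroup G) : Set G) :=
      H.norm ⟨_, rfl⟩
    obtain ⟨q', hq', h2⟩ := mul_pow_mem hn (beta_mem_Q v) 4
    rw [← map_pow, el_pow_four j hj, map_one, mul_one] at h2
    obtain ⟨v', -, rfl⟩ := exists_beta H.sq H.comm hq'
    rw [show (8 : ℕ) = 4 * 2 from rfl, pow_mul, h2, pow_two, beta_sq l H.sq H.comm]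
  subst hj
  change phi c * (beta l w * phi m) * (phi c)⁻¹ = beta l v * phi (el P6) at h1
  set e := lin BB v with he
  have e2 : phi (el P6) * beta l e * (phi (el P6))⁻¹ = beta l (lin A6 e) := by
    rw [mA6]
    exact act_el H ok6 e
  have h2 : (beta l e * phi c) * (beta l w * phi m) * (beta l e * phi c)⁻¹ =
      beta l (v ^^^ (e ^^^ lin A6 e)) * phi (el P6) := by
    have h3 : (beta l e * phi c) * (beta l w * phi m) * (beta l e * phi c)⁻¹ =
        beta l e * (phi c * (beta l w * phi m) * (phi c)⁻¹) * (beta l e)⁻¹ := by group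
    rw [h3, h1, beta_xor l H.sq H.comm, beta_xor l H.sq H.comm, ← e2, beta_inv H e]
    have h4 : beta l e * beta l v = beta l v * beta l e := by
      rw [← beta_xor l H.sq H.comm, Nat.xor_comm, beta_xor l H.sq H.comm]
    calc beta l e * (beta l v * phi (el P6)) * beta l e = (beta l e * beta l v) * phi (el P6) * beta l e := by group
      _ = (beta l v * beta l e) * phi (el P6) * beta l e := by rw [h4]
      _ = beta l v * (beta l e * (phi (el P6) * beta l e * (phi (el P6))⁻¹)) * phi (el P6) := by group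
  refine ⟨beta l e * phi c, Subgroup.mul_mem _ (beta_mem_NN e) (phi_mem_NN c), _, ?_, h2⟩
  have h17 : ∀ k : ℕ, Tab.pw (k, P6) 8 = (0, idP) → ¬ (v ^^^ (e ^^^ lin A6 e)) = k := by
    intro k hk hv2
    apply hord h2
    rw [hv2]
    have h3 := (Tab.E_pw H (a := (k, P6)) ok6 8).2
    rw [hk, E_one] at h3
    exact h3.symm
  rcases red v hv with h3 | h3 | h3 | h3
  · exact absurd h3 (h17 0 pw0)
  · exact absurd h3 (h17 17 pw17)
  · exact Or.inl h3
  · exact Or.inr h3

/-- **The centralizer in `2^11:M24` of an element of order 16.** -/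
theorem card_le (H : Hyp R l phi) {u : G} (hu : u ∈ NN l phi) (h16 : orderOf u = 16) :
    Nat.card {s : G // s ∈ NN l phi ∧ s * u = u * s} ≤ 32 := by
  obtain ⟨n, hn, v, hv, h⟩ := exists_red H hu h16
  have h1 : Nat.card {s : G // s ∈ NN l phi ∧
      s * (beta l v * phi (el P6)) = (beta l v * phi (el P6)) * s} ≤ 32 := by
    rcases hv with rfl | rfl
    · exact (card_le_sol H (by norm_num)).trans sol1
    · exact (card_le_sol H (by norm_num)).trans sol16
  have key : ∀ s : {s : G // s ∈ NN l phi ∧ s * u = u * s}, n * s.1 * n⁻¹ ∈ NN l phi ∧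
      n * s.1 * n⁻¹ * (beta l v * phi (el P6)) = (beta l v * phi (el P6)) * (n * s.1 * n⁻¹) := by
    intro s
    refine ⟨Subgroup.mul_mem _ (Subgroup.mul_mem _ hn s.2.1) (Subgroup.inv_mem _ hn), ?_⟩
    rw [← h]
    calc n * s.1 * n⁻¹ * (n * u * n⁻¹) = n * (s.1 * u) * n⁻¹ := by group
      _ = n * (u * s.1) * n⁻¹ := by rw [s.2.2]
      _ = n * u * n⁻¹ * (n * s.1 * n⁻¹) := by group
  refine le_trans (Nat.card_le_card_of_injective (fun s => (⟨n * s.1 * n⁻¹, key s⟩ :
    {s : G // s ∈ NN l phi ∧ s * (beta l v * phi (el P6)) = (beta l v * phi (el P6)) * s})) ?_) h1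
  intro s s' hs
  have h2 := congrArg Subtype.val hs
  exact Subtype.ext (mul_left_cancel (mul_right_cancel h2))

end

end Cfsg.Agent.H669.Dl.J4
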